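import Cfsg.Agent.HeC.InvXD

set_option autoImplicit false
set_option Elab.async false
set_option maxRecDepth 100000
set_option linter.all false

namespace Cfsg.Agent.HeC
open Cfsg.Agent.CGT

open Cfsg.Agent.Inv

theorem c2_l2_ok : c2_l2.okT 12 x_ts [0, 2, 4, 6, 8, 10, 12, 14] [109, 0] (.cons [0] (.cons [2] (.cons [8] (.cons [4] .nil (.cons [6] .nil .nil)) .nil) (.cons [4] (.cons [8] (.cons [0] .nil (.cons [4] .nil .nil)) (.cons [9] .nil .nil)) (.cons [6] (.cons [4] .nil .nil) .nil))) (.cons [2] (.cons [4] (.cons [0] .nil (.cons [2] .nil (.cons [6] .nil .nil))) (.cons [6] .nil (.cons [8] (.cons [0] (.cons [4] (.cons [9] .nil .nil) .nil) (.cons [4] (.cons [0] .nil (.cons [2] (.cons [9] .nil .nil) .nil)) .nil)) (.cons [9] (.cons [4] (.cons [2] .nil .nil) .nil) .nil)))) .nil)) = true := by decide +kernel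
theorem c2_l3_ok : c2_l3.okT 12 x_ts [0, 2, 4, 6, 8, 10, 12, 14] [2, 109, 0] (.cons [4] (.cons [0] (.cons [4] .nil (.cons [5] (.cons [0] (.cons [4] .nil .nil) .nil) .nil)) .nil) (.cons [5] (.cons [0] (.cons [4] (.cons [0] .nil .nil) (.cons [5] .nil .nil)) .nil) .nil)) = true := by decide +kernel
theorem c2_l4_ok : c2_l4.okT 12 x_ts [0, 2, 4, 6, 8, 10, 12, 14] [219, 2, 109, 0] (.cons [0] .nil .nil) = true := by decide +kernel
theorem c2_l5_ok : c2_l5.okT 12 x_ts [0, 2, 4, 6, 8, 10, 12, 14] [1, 219, 2, 109, 0] (.cons [0] .nil .nil) = true := by decide +kernel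
theorem cc_l0_ok : (ptsOK 12 [] && (wordsIn [0, 2, 4, 6, 8] cc_l0.S && cc_l0.ok 12 y_ns y_ts [])) = true := by decide +kernel
theorem cc_l1_ok : (ptsOK 12 [0] && (wordsIn [0, 2, 4, 6, 8] cc_l1.S && cc_l1.ok 12 y_ns y_ts [0])) = true := by decide +kernel
theorem cc_l2_ok : cc_l2.okT 12 y_ts [0, 2, 4, 6, 8] [109, 0] (.cons [0] (.cons [2] .nil (.cons [4] .nil .nil)) (.cons [2] (.cons [4] (.cons [0] .nil (.cons [2] .nil .nil)) .nil) .nil)) = true := by decide +kernel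
theorem cc_l3_ok : (ptsOK 12 [2, 109, 0] && (wordsIn [0, 2, 4, 6, 8] cc_l3.S && cc_l3.ok 12 y_ns y_ts [2, 109, 0])) = true := by decide +kernel
theorem cc_l4_ok : cc_l4.okT 12 y_ts [0, 2, 4, 6, 8] [219, 2, 109, 0] (.cons [0] .nil .nil) = true := by decide +kernel

end Cfsg.Agent.HeC
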