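import Cfsg.Agent.HeC.InvXT0
import Cfsg.Agent.HeC.InvXT1
import Cfsg.Agent.HeC.InvXT2

set_option autoImplicit false
set_option Elab.async false
set_option maxRecDepth 100000
set_option linter.all false

namespace Cfsg.Agent.HeC
open Cfsg.Agent.CGT

open Cfsg.Agent.Inv

theorem x_ts_ok : TabsOK 12 (lp x_ns) x_ts :=
  TabsFrom.ok ⟨TabOK.of_beq x_v x_t0_b,
    TabOK.next (j := 0) (TabOK.of_beq x_v x_t0_b) x_p (by decide +kernel),
    TabOK.of_beq x_v x_t2_b,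
    TabOK.next (j := 1) (TabOK.of_beq x_v x_t2_b) x_p (by decide +kernel),
    TabOK.of_beq x_v x_t4_b,
    TabOK.next (j := 2) (TabOK.of_beq x_v x_t4_b) x_p (by decide +kernel),
    TabOK.of_beq x_v x_t6_b,
    TabOK.next (j := 3) (TabOK.of_beq x_v x_t6_b) x_p (by decide +kernel),
    TabOK.of_beq x_v x_t8_b,
    TabOK.next (j := 4) (TabOK.of_beq x_v x_t8_b) x_p (by decide +kernel),
    TabOK.of_beq x_v x_t10_b,
    TabOK.next (j := 5) (TabOK.of_beq x_v x_t10_b) x_p (by decide +kernel),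
    TabOK.of_beq x_v x_t12_b,
    TabOK.of_beq x_v x_t13_b,
    TabOK.of_beq x_v x_t14_b,
    TabOK.next (j := 7) (TabOK.of_beq x_v x_t14_b) x_p (by decide +kernel),
    Nat.le_of_ble_eq_true (by decide +kernel)⟩
theorem x_ext : extOK 12 m_ns x_ns x_W = true := extOK_of rfl (fun j hj => by
    change j < 8 at hj
    interval_cases j
    exacts [x_e0, x_e1, x_e2, x_e3, x_e4, x_e5, x_e6, x_e7])
theorem c2_sound {G : Type*} [Group G] {φ : G →* Equiv.Perm ℕ} {γ : ℕ → G}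
    (M : Model φ γ 12 x_ns x_ts) : ChainSound φ (gp γ [0, 2, 4, 6, 8, 10, 12, 14]) 12 [] c2_ls :=
  ⟨Level.ok_sound' M c2_l0_ok,
   Level.ok_sound' M c2_l1_ok,
   Level.okT_sound M c2_l2_ok,
   Level.okT_sound M c2_l3_ok,
   Level.okT_sound M c2_l4_ok,
   Level.okT_sound M c2_l5_ok, trivial⟩
theorem cc_sound {G : Type*} [Group G] {φ : G →* Equiv.Perm ℕ} {γ : ℕ → G}
    (M : Model φ γ 12 y_ns y_ts) : ChainSound φ (gp γ [0, 2, 4, 6, 8]) 12 [] cc_ls :=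
  ⟨Level.ok_sound' M cc_l0_ok,
   Level.ok_sound' M cc_l1_ok,
   Level.okT_sound M cc_l2_ok,
   Level.ok_sound' M cc_l3_ok,
   Level.okT_sound M cc_l4_ok, trivial⟩
theorem x_cert {G : Type*} [Group G] {φ : G →* Equiv.Perm ℕ} {γ : ℕ → G}
    (C : Cert φ γ 12 m_ns m_ts [0, 2, 4, 6, 8, 10, 12] c_ls) : Cert φ (wg γ x_W) 12 x_ns x_ts [0, 2, 4, 6, 8, 10, 12, 14] c2_ls :=
  cert_extend C x_v x_ext x_ts_ok c2_sound (by decide +kernel)

end Cfsg.Agent.HeC
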